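import Mathlib

/-!
# Bit-coded matrices over `ZMod 2` (helper732)

A vector of `ι → ZMod 2`, `e : ι ≃ Fin n`, is coded by a natural number (`vec e a`), a matrix by the
list of the codes of its columns (`M e l`).

* `app l v` : code of the matrix times the vector; `mulL a b` : code of the product;
* `M_mul`, `M_pow`, `M_one`, `vec_inj`, `exists_code`;
* `card_centralizer_le` : bound for a centralizer by counting the images of generators.
-/

set_option autoImplicit false

namespace Cfsg.Agent.H732.Bit

open Matrix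

/-- The `i`-th bit of `a`. -/
def bit (a i : ℕ) : ZMod 2 := if a.testBit i then 1 else 0

theorem bit_xor (a b i : ℕ) : bit (a ^^^ b) i = bit a i + bit b i := by
  unfold bit
  rw [Nat.testBit_xor]
  cases a.testBit i <;> cases b.testBit i <;> simp <;> decide

@[simp] theorem bit_zero (i : ℕ) : bit 0 i = 0 := by simp [bit]

theorem bit_mod (v a i : ℕ) : bit ((v % 2) * a) i = bit v 0 * bit a i := by
  rcases Nat.mod_two_eq_zero_or_one v with h | h
  · rw [h, zero_mul, bit_zero]
    have : bit v 0 = 0 := by simp [bit, Nat.testBit_zero, h]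
    rw [this, zero_mul]
  · rw [h, one_mul]
    have : bit v 0 = 1 := by simp [bit, Nat.testBit_zero, h]
    rw [this, one_mul]

theorem bit_div (v i : ℕ) : bit (v / 2) i = bit v (i + 1) := by
  simp [bit, Nat.testBit_succ]

/-- Matrix (list of columns) times vector. -/
def app : List ℕ → ℕ → ℕ
  | [], _ => 0
  | a :: l, v => ((v % 2) * a) ^^^ app l (v / 2)

theorem bit_app (l : List ℕ) (v i : ℕ) :
    bit (app l v) i = ∑ k ∈ Finset.range l.length, bit (l.getD k 0) i * bit v k := by
  induction l generalizing v with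
  | nil => simp [app]
  | cons a l ih =>
    rw [app, bit_xor, bit_mod, ih, List.length_cons, Finset.sum_range_succ', add_comm]
    congr 1
    · refine Finset.sum_congr rfl fun k _ => ?_
      rw [bit_div, List.getD_cons_succ]
    · rw [List.getD_cons_zero, mul_comm]

/-- Product of coded matrices. -/
def mulL (a b : List ℕ) : List ℕ := b.map (app a)

/-- Powers of coded matrices. -/
def powL (n : ℕ) (a : List ℕ) : ℕ → List ℕ
  | 0 => (List.range n).map (2 ^ ·)
  | k + 1 => mulL (powL n a k) a

variable {n : ℕ} {ι : Type} [Fintype ι] [DecidableEq ι] (e : ι ≃ Fin n)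

/-- The vector with code `a`. -/
def vec (a : ℕ) : ι → ZMod 2 := fun i => bit a (e i)

omit [Fintype ι] [DecidableEq ι] in
theorem vec_xor (a b : ℕ) : vec e (a ^^^ b) = vec e a + vec e b := by
  ext i
  exact bit_xor a b (e i)

omit [Fintype ι] [DecidableEq ι] in
@[simp] theorem vec_zero : vec e 0 = 0 := by
  ext i
  simp [vec]

omit [Fintype ι] [DecidableEq ι] in
theorem vec_inj {a b : ℕ} (ha : a < 2 ^ n) (hb : b < 2 ^ n) (h : vec e a = vec e b) : a = b := by
  refine Nat.eq_of_testBit_eq fun i => ?_
  rcases Nat.lt_or_ge i n with hi | hi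
  · have h1 := congrFun h (e.symm ⟨i, hi⟩)
    simp only [vec, bit, Equiv.apply_symm_apply] at h1
    cases h2 : a.testBit i <;> cases h3 : b.testBit i <;> simp_all
  · rw [Nat.testBit_lt_two_pow (ha.trans_le (Nat.pow_le_pow_right (by norm_num) hi)),
      Nat.testBit_lt_two_pow (hb.trans_le (Nat.pow_le_pow_right (by norm_num) hi))]

omit [Fintype ι] [DecidableEq ι] in
theorem exists_code (x : ι → ZMod 2) : ∃ a < 2 ^ n, vec e a = x := by
  classical
  refine ⟨Nat.ofBits fun k : Fin n => decide (x (e.symm k) = 1), Nat.ofBits_lt_two_pow _, ?_⟩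
  ext i
  simp only [vec, bit]
  rw [Nat.testBit_ofBits_lt _ _ (e i).2]
  simp only [Fin.eta, Equiv.symm_apply_apply, decide_eq_true_eq]
  split_ifs with h
  · exact h.symm
  · have h1 : ∀ z : ZMod 2, z ≠ 1 → 0 = z := by decide
    exact h1 _ h

/-- The code of a vector. -/
noncomputable def code (x : ι → ZMod 2) : ℕ := (exists_code e x).choose

omit [Fintype ι] [DecidableEq ι] in
theorem code_lt (x : ι → ZMod 2) : code e x < 2 ^ n := (exists_code e x).choose_spec.1

omit [Fintype ι] [DecidableEq ι] in
@[simp] theorem vec_code (x : ι → ZMod 2) : vec e (code e x) = x := (exists_code e x).choose_spec.2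

omit [Fintype ι] [DecidableEq ι] in
theorem code_vec {a : ℕ} (ha : a < 2 ^ n) : code e (vec e a) = a :=
  vec_inj e (code_lt e _) ha (vec_code e _)

/-- The matrix with coded columns. -/
def M (l : List ℕ) : Matrix ι ι (ZMod 2) := Matrix.of fun i j => bit (l.getD (e j) 0) (e i)

omit [DecidableEq ι] in
theorem M_mulVec {l : List ℕ} (hl : l.length = n) (v : ℕ) : M e l *ᵥ vec e v = vec e (app l v) := by
  ext i
  rw [vec, bit_app, hl, ← Fin.sum_univ_eq_sum_range (fun k => bit (l.getD k 0) (e i) * bit v k) n,
    ← e.sum_comp]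
  rfl

omit [DecidableEq ι] in
theorem M_mul {a b : List ℕ} (ha : a.length = n) (hb : b.length = n) :
    M e a * M e b = M e (mulL a b) := by
  ext i j
  have h1 := congrFun (M_mulVec e ha (b.getD (e j) 0)) i
  have h2 : (mulL a b).getD (e j) 0 = app a (b.getD (e j) 0) := by
    rw [mulL, List.getD_eq_getElem _ _ (by rw [List.length_map, hb]; exact (e j).2),
      List.getElem_map, List.getD_eq_getElem _ _ (by rw [hb]; exact (e j).2)]
  have h3 : (M e a * M e b) i j = (M e a *ᵥ vec e (b.getD (e j) 0)) i := rfl
  have h4 : M e (mulL a b) i j = bit ((mulL a b).getD (e j) 0) (e i) := rfl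
  rw [h3, h1, h4, h2]
  rfl

omit [Fintype ι] in
theorem M_one : M e ((List.range n).map (2 ^ ·)) = 1 := by
  ext i j
  rw [M, Matrix.of_apply, List.getD_eq_getElem _ _ (by
    rw [List.length_map, List.length_range]; exact (e j).2), List.getElem_map, List.getElem_range]
  unfold bit
  rw [Nat.testBit_two_pow]
  by_cases h : i = j
  · subst h
    simp
  · have : ¬ ((e j : ℕ) = e i) := fun h1 => h (e.injective (Fin.ext h1)).symm
    simp [this, h]

theorem length_powL {a : List ℕ} (ha : a.length = n) : ∀ k, (powL n a k).length = n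
  | 0 => by simp [powL]
  | k + 1 => by rw [powL, mulL, List.length_map, ha]

theorem M_pow {a : List ℕ} (ha : a.length = n) (k : ℕ) : M e a ^ k = M e (powL n a k) := by
  induction k with
  | zero => rw [pow_zero, powL, M_one]
  | succ k ih => rw [pow_succ, ih, M_mul e (length_powL ha k) ha, powL]

theorem vec_two_pow (j : ι) : vec e (2 ^ (e j : ℕ)) = Pi.single j 1 := by
  ext i
  unfold vec bit
  rw [Nat.testBit_two_pow]
  by_cases h : i = j
  · subst h
    simp
  · have : ¬ ((e j : ℕ) = e i) := fun h1 => h (e.injective (Fin.ext h1)).symm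
    simp [this, h]

/-- A matrix is determined by its values on the coded basis. -/
theorem eq_of_basis {A B : Matrix ι ι (ZMod 2)}
    (h : ∀ k < n, A *ᵥ vec e (2 ^ k) = B *ᵥ vec e (2 ^ k)) : A = B := by
  ext i j
  have h1 := h (e j) (e j).2
  rw [vec_two_pow] at h1
  have h2 := congrFun h1 i
  simpa using h2

/-- The word `∑ a ^ k v_j` over a list of pairs `(j, k)`. -/
def word (n : ℕ) (a vs : List ℕ) (w : List (ℕ × ℕ)) : ℕ :=
  w.foldr (fun p s => app (powL n a p.2) (vs.getD p.1 0) ^^^ s) 0

/-- `vs` generate everything under `a`, with certificate. -/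
def Gen (n : ℕ) (a vs : List ℕ) (cert : List (List (ℕ × ℕ))) : Prop :=
  (List.range n).all (fun i => word n a vs (cert.getD i []) == 2 ^ i) = true

instance (n : ℕ) (a vs : List ℕ) (cert : List (List (ℕ × ℕ))) : Decidable (Gen n a vs cert) := by
  unfold Gen
  infer_instance

theorem eq_of_gen {a vs : List ℕ} {cert : List (List (ℕ × ℕ))} (ha : a.length = n)
    (hg : Gen n a vs cert) {A B : Matrix ι ι (ZMod 2)} (hA : A * M e a = M e a * A)
    (hB : B * M e a = M e a * B) (h : ∀ j, A *ᵥ vec e (vs.getD j 0) = B *ᵥ vec e (vs.getD j 0)) :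
    A = B := by
  have hpow : ∀ (X : Matrix ι ι (ZMod 2)), X * M e a = M e a * X → ∀ k v,
      X *ᵥ vec e (app (powL n a k) v) = M e (powL n a k) *ᵥ (X *ᵥ vec e v) := by
    intro X hX k v
    have h1 : X * M e a ^ k = M e a ^ k * X := (show Commute X (M e a ^ k) from
      (show Commute X (M e a) from hX).pow_right k)
    rw [M_pow e ha] at h1
    rw [← M_mulVec e (length_powL ha k), Matrix.mulVec_mulVec, h1, ← Matrix.mulVec_mulVec]
  have hword : ∀ w : List (ℕ × ℕ), A *ᵥ vec e (word n a vs w) = B *ᵥ vec e (word n a vs w) := by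
    intro w
    induction w with
    | nil => simp [word]
    | cons p w ih =>
      have : word n a vs (p :: w) = app (powL n a p.2) (vs.getD p.1 0) ^^^ word n a vs w := rfl
      rw [this, vec_xor, Matrix.mulVec_add, Matrix.mulVec_add, ih, hpow A hA, hpow B hB, h]
  refine eq_of_basis e fun k hk => ?_
  have h1 : word n a vs (cert.getD k []) = 2 ^ k := by
    have := (List.all_eq_true.1 hg) k (List.mem_range.2 hk)
    exact beq_iff_eq.1 this
  rw [← h1]
  exact hword _

/-- **Bound for a centralizer**: count the tuples of codes of the images of the generators. -/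
theorem card_centralizer_le {Γ : Type*} [Group Γ] (φ : Γ →* Matrix ι ι (ZMod 2))
    (hφ : Function.Injective φ) {g : Γ} {a vs : List ℕ} {cert : List (List (ℕ × ℕ))}
    (ha : a.length = n) (hg : φ g = M e a) (hgen : Gen n a vs cert) (S : List (List ℕ))
    (hS : ∀ γ : Γ, Commute γ g → vs.map (fun v => code e (φ γ *ᵥ vec e v)) ∈ S) :
    Nat.card (Subgroup.centralizer ({g} : Set Γ)) ≤ S.length := by
  classical
  let f : Subgroup.centralizer ({g} : Set Γ) → {t // t ∈ S} := fun γ =>
    ⟨vs.map (fun v => code e (φ γ.1 *ᵥ vec e v)), hS γ.1 (by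
      have := (Subgroup.mem_centralizer_singleton_iff.1 γ.2)
      exact this)⟩
  have hf : Function.Injective f := by
    intro γ δ h
    have h1 : vs.map (fun v => code e (φ γ.1 *ᵥ vec e v)) = vs.map (fun v => code e (φ δ.1 *ᵥ vec e v)) :=
      congrArg Subtype.val h
    have h2 : ∀ v ∈ vs, code e (φ γ.1 *ᵥ vec e v) = code e (φ δ.1 *ᵥ vec e v) := List.map_inj_left.1 h1
    have hcomm : ∀ x : Subgroup.centralizer ({g} : Set Γ), φ x.1 * M e a = M e a * φ x.1 := by
      intro x
      rw [← hg, ← map_mul, ← map_mul]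
      exact congrArg φ (Subgroup.mem_centralizer_singleton_iff.1 x.2)
    apply Subtype.ext
    apply hφ
    refine eq_of_gen e ha hgen (hcomm γ) (hcomm δ) fun j => ?_
    rcases Nat.lt_or_ge j vs.length with hj | hj
    · rw [List.getD_eq_getElem _ _ hj]
      have h3 := congrArg (vec e) (h2 _ (List.getElem_mem hj))
      rwa [vec_code, vec_code] at h3
    · rw [List.getD_eq_default _ _ hj, vec_zero]
      simp
  have : Finite {t // t ∈ S} := (List.finite_toSet S).to_subtype
  calc Nat.card (Subgroup.centralizer ({g} : Set Γ)) ≤ Nat.card {t // t ∈ S} :=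
        Nat.card_le_card_of_injective f hf
    _ = S.toFinset.card := by
        rw [← Fintype.card_coe, ← Nat.card_eq_fintype_card]
        exact Nat.card_congr (Equiv.subtypeEquivRight fun t => by simp)
    _ ≤ S.length := List.toFinset_card_le S

end Cfsg.Agent.H732.Bit
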