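import Cfsg.Agent.H732.Bit.Code

/-!
# Bit-coded elements of `GL_n(2)` (helper732)

* `gl e a b h` : the element with code `a` and inverse code `b`;
* `orderOf_gl`, `isConj_pow`, `not_isConj_of_poly`, `card_cyc_le`.
-/

set_option autoImplicit false

namespace Cfsg.Agent.H732.Bit

open Matrix

/-- Sum of coded matrices. -/
def addL (a b : List ℕ) : List ℕ := List.zipWith (· ^^^ ·) a b

/-- `∑ a ^ k`, `k` in the list. -/
def polyL (n : ℕ) (a : List ℕ) (q : List ℕ) : List ℕ :=
  q.foldr (fun k s => addL (powL n a k) s) (List.replicate n 0)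

/-- `a` and `b` are codes of inverse matrices. -/
def OK (n : ℕ) (a b : List ℕ) : Prop :=
  a.length = n ∧ b.length = n ∧ mulL a b = (List.range n).map (2 ^ ·) ∧
    mulL b a = (List.range n).map (2 ^ ·)

instance (n : ℕ) (a b : List ℕ) : Decidable (OK n a b) := by
  unfold OK
  infer_instance

/-- All entries are less than `2 ^ n`, and the length is `n`. -/
def Sm (n : ℕ) (a : List ℕ) : Prop := a.length = n ∧ a.all (fun x => decide (x < 2 ^ n)) = true

instance (n : ℕ) (a : List ℕ) : Decidable (Sm n a) := by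
  unfold Sm
  infer_instance

variable {n : ℕ} {ι : Type} [Fintype ι] [DecidableEq ι] (e : ι ≃ Fin n)

theorem length_addL {a b : List ℕ} (ha : a.length = n) (hb : b.length = n) : (addL a b).length = n := by
  rw [addL, List.length_zipWith, ha, hb, min_self]

omit [Fintype ι] [DecidableEq ι] in
theorem M_add {a b : List ℕ} (ha : a.length = n) (hb : b.length = n) :
    M e (addL a b) = M e a + M e b := by
  ext i j
  have h1 : (addL a b).getD (e j) 0 = a.getD (e j) 0 ^^^ b.getD (e j) 0 := by
    rw [List.getD_eq_getElem _ _ (by rw [length_addL ha hb]; exact (e j).2),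
      List.getD_eq_getElem _ _ (by rw [ha]; exact (e j).2),
      List.getD_eq_getElem _ _ (by rw [hb]; exact (e j).2)]
    simp [addL]
  show bit ((addL a b).getD (e j) 0) (e i) = bit (a.getD (e j) 0) (e i) + bit (b.getD (e j) 0) (e i)
  rw [h1, bit_xor]

omit [Fintype ι] [DecidableEq ι] in
theorem M_zero : M e (List.replicate n 0) = 0 := by
  ext i j
  show bit ((List.replicate n 0).getD (e j) 0) (e i) = 0
  rw [List.getD_eq_getElem _ _ (by rw [List.length_replicate]; exact (e j).2), List.getElem_replicate,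
    bit_zero]

theorem length_polyL {a : List ℕ} (ha : a.length = n) (q : List ℕ) : (polyL n a q).length = n := by
  induction q with
  | nil => simp [polyL]
  | cons k q ih => exact length_addL (length_powL ha k) ih

theorem M_poly {a : List ℕ} (ha : a.length = n) (q : List ℕ) :
    M e (polyL n a q) = (q.map fun k => M e a ^ k).sum := by
  induction q with
  | nil => exact M_zero e
  | cons k q ih =>
    have : polyL n a (k :: q) = addL (powL n a k) (polyL n a q) := rfl
    rw [this, M_add e (length_powL ha k) (length_polyL ha q), ih, List.map_cons, List.sum_cons, M_pow e ha]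

omit [Fintype ι] [DecidableEq ι] in
theorem M_inj {a b : List ℕ} (ha : Sm n a) (hb : Sm n b) (h : M e a = M e b) : a = b := by
  refine List.ext_getElem (ha.1.trans hb.1.symm) fun i h1 h2 => ?_
  have hi : i < n := ha.1 ▸ h1
  have h3 : vec e (a.getD i 0) = vec e (b.getD i 0) := by
    ext k
    have h4 := congrFun (congrFun h k) (e.symm ⟨i, hi⟩)
    simp only [M, Matrix.of_apply, Equiv.apply_symm_apply] at h4
    exact h4
  rw [List.getD_eq_getElem _ _ h1, List.getD_eq_getElem _ _ h2] at h3
  refine vec_inj e ?_ ?_ h3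
  · exact of_decide_eq_true ((List.all_eq_true.1 ha.2) _ (List.getElem_mem h1))
  · exact of_decide_eq_true ((List.all_eq_true.1 hb.2) _ (List.getElem_mem h2))

/-- The element of `GL_n(2)` with code `a`. -/
def gl (a b : List ℕ) (h : OK n a b) : GL ι (ZMod 2) where
  val := M e a
  inv := M e b
  val_inv := by rw [M_mul e h.1 h.2.1, h.2.2.1, M_one]
  inv_val := by rw [M_mul e h.2.1 h.1, h.2.2.2, M_one]

theorem gl_val (a b : List ℕ) (h : OK n a b) : (gl e a b h : Matrix ι ι (ZMod 2)) = M e a := rfl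

theorem gl_pow (a b : List ℕ) (h : OK n a b) (k : ℕ) :
    ((gl e a b h ^ k : GL ι (ZMod 2)) : Matrix ι ι (ZMod 2)) = M e (powL n a k) := by
  rw [Units.val_pow_eq_pow_val, gl_val, M_pow e h.1]

theorem gl_pow_eq_one {a b : List ℕ} (h : OK n a b) {k : ℕ} (hk : powL n a k = (List.range n).map (2 ^ ·)) :
    gl e a b h ^ k = 1 := by
  apply Units.ext
  rw [gl_pow, hk, M_one]
  rfl

theorem gl_pow_ne_one {a b : List ℕ} (h : OK n a b) {k : ℕ} {l : List ℕ} (hl : powL n a k = l)
    (hs : Sm n l) (h1 : Sm n ((List.range n).map (2 ^ ·))) (hk : l ≠ (List.range n).map (2 ^ ·)) :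
    gl e a b h ^ k ≠ 1 := by
  intro h2
  have h3 : ((gl e a b h ^ k : GL ι (ZMod 2)) : Matrix ι ι (ZMod 2))
      = ((1 : GL ι (ZMod 2)) : Matrix ι ι (ZMod 2)) := by rw [h2]
  rw [gl_pow, hl, Units.val_one, ← M_one e] at h3
  exact hk (M_inj e hs h1 h3)

/-- Certificate for the order: `a ^ N = 1` and `a ^ m ≠ 1` for the `m` in the list. -/
def Ord (n : ℕ) (a : List ℕ) (N : ℕ) (ms : List ℕ) : Prop :=
  powL n a N = (List.range n).map (2 ^ ·) ∧ Sm n ((List.range n).map (2 ^ ·)) ∧
    (∀ m ∈ ms, Sm n (powL n a m) ∧ powL n a m ≠ (List.range n).map (2 ^ ·)) ∧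
    ∀ d ∈ List.range N, d ∣ N → ∃ m ∈ ms, d ∣ m

instance (n : ℕ) (a : List ℕ) (N : ℕ) (ms : List ℕ) : Decidable (Ord n a N ms) := by
  unfold Ord
  infer_instance

theorem orderOf_gl {a b : List ℕ} (h : OK n a b) {N : ℕ} (hN : 0 < N) {ms : List ℕ}
    (ho : Ord n a N ms) : orderOf (gl e a b h) = N := by
  have h1 : orderOf (gl e a b h) ∣ N := orderOf_dvd_of_pow_eq_one (gl_pow_eq_one e h ho.1)
  by_contra hne
  have hlt : orderOf (gl e a b h) < N := lt_of_le_of_ne (Nat.le_of_dvd hN h1) hne
  obtain ⟨m, hm, hdm⟩ := ho.2.2.2 _ (List.mem_range.2 hlt) h1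
  obtain ⟨h2, h3⟩ := ho.2.2.1 m hm
  exact gl_pow_ne_one e h rfl h2 ho.2.1 h3 (orderOf_dvd_iff_pow_eq_one.1 hdm)

theorem isConj_gl {a b a' b' p p' : List ℕ} (h : OK n a b) (h' : OK n a' b') (hp : OK n p p')
    (hc : mulL p a = mulL a' p) : IsConj (gl e a b h) (gl e a' b' h') := by
  refine isConj_iff.2 ⟨gl e p p' hp, ?_⟩
  rw [mul_inv_eq_iff_eq_mul]
  apply Units.ext
  rw [Units.val_mul, Units.val_mul, gl_val, gl_val, gl_val, M_mul e hp.1 h.1, M_mul e h'.1 hp.1, hc]

theorem isConj_gl_pow {a b p p' : List ℕ} (h : OK n a b) (hp : OK n p p') {t : ℕ}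
    (hc : mulL p a = mulL (powL n a t) p) : IsConj (gl e a b h) (gl e a b h ^ t) := by
  refine isConj_iff.2 ⟨gl e p p' hp, ?_⟩
  rw [mul_inv_eq_iff_eq_mul]
  apply Units.ext
  rw [Units.val_mul, Units.val_mul, gl_pow, gl_val, gl_val, M_mul e hp.1 h.1,
    M_mul e (length_powL h.1 t) hp.1, hc]

/-- Non-conjugate elements of a matrix group, from a polynomial. -/
theorem not_isConj_of_poly {Γ : Type*} [Group Γ] (φ : Γ →* Matrix ι ι (ZMod 2)) {g h : Γ}
    {a b : List ℕ} (ha : a.length = n) (hb : b.length = n) (hg : φ g = M e a) (hh : φ h = M e b)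
    (q : List ℕ) (hga : polyL n a q = List.replicate n 0) (hs : Sm n (polyL n b q))
    (hz : Sm n (List.replicate n 0)) (hgb : polyL n b q ≠ List.replicate n 0) : ¬ IsConj g h := by
  intro hc
  obtain ⟨c, hc⟩ := isConj_iff.1 hc
  have h1 : (q.map fun k => M e a ^ k).sum = 0 := by rw [← M_poly e ha, hga, M_zero]
  have h2 : (q.map fun k => M e b ^ k).sum = 0 := by
    have h3 : ∀ q : List ℕ, (q.map fun k => M e b ^ k).sum
        = φ c * (q.map fun k => M e a ^ k).sum * φ c⁻¹ := by
      intro q
      induction q with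
      | nil => simp
      | cons k q ih =>
        rw [List.map_cons, List.sum_cons, ih, List.map_cons, List.sum_cons, mul_add, add_mul]
        congr 1
        rw [← hg, ← hh, ← hc, ← map_pow, ← map_pow, ← map_mul, ← map_mul, conj_pow]
    rw [h3, h1, mul_zero, zero_mul]
  rw [← M_poly e hb, ← M_zero e] at h2
  exact hgb (M_inj e hs hz h2)

/-- Bound for the centralizer of an element with a cyclic vector `v`. -/
theorem card_cyc_le {Γ : Type*} [Group Γ] (φ : Γ →* Matrix ι ι (ZMod 2))
    (hφ : Function.Injective φ) {g : Γ} {a : List ℕ} {v : ℕ} {cert : List (List (ℕ × ℕ))}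
    (ha : a.length = n) (hg : φ g = M e a) (hgen : Gen n a [v] cert) (qs ms : List (List ℕ))
    (hms : qs.map (polyL n a) = ms)
    (hv : ms.all (fun m => decide (app m v < 2 ^ n) && decide (app m v ≠ 0)) = true) :
    Nat.card (Subgroup.centralizer ({g} : Set Γ))
      ≤ ((List.range (2 ^ n)).filter fun w => ms.all fun m => decide (app m w ≠ 0)).length := by
  have h1 := card_centralizer_le e φ hφ ha hg hgen
    (((List.range (2 ^ n)).filter fun w => ms.all fun m => decide (app m w ≠ 0)).map fun w => [w]) ?_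
  · rwa [List.length_map] at h1
  · intro γ hγ
    rw [List.map_cons, List.map_nil, List.mem_map]
    refine ⟨_, ?_, rfl⟩
    rw [List.mem_filter]
    refine ⟨List.mem_range.2 (code_lt e _), ?_⟩
    rw [List.all_eq_true]
    intro m hm
    rw [decide_eq_true_eq]
    intro h0
    have hm' := (List.all_eq_true.1 hv) m hm
    rw [Bool.and_eq_true, decide_eq_true_eq, decide_eq_true_eq] at hm'
    obtain ⟨q, -, hq⟩ : ∃ q ∈ qs, polyL n a q = m := by
      rw [← hms] at hm
      exact List.mem_map.1 hm
    have hlen : m.length = n := hq ▸ length_polyL ha q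
    have hcomm : φ γ * M e m = M e m * φ γ := by
      rw [← hq, M_poly e ha]
      have h3 : ∀ q : List ℕ, φ γ * (q.map fun k => M e a ^ k).sum
          = (q.map fun k => M e a ^ k).sum * φ γ := by
        intro q
        induction q with
        | nil => simp
        | cons k q ih =>
          rw [List.map_cons, List.sum_cons, mul_add, add_mul, ih]
          congr 1
          rw [← hg, ← map_pow, ← map_mul, ← map_mul, (hγ.pow_right k).eq]
      exact h3 q
    have h2 : φ γ *ᵥ vec e (app m v) = 0 := by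
      rw [← M_mulVec e hlen, Matrix.mulVec_mulVec, hcomm, ← Matrix.mulVec_mulVec,
        ← vec_code e (φ γ *ᵥ vec e v), M_mulVec e hlen, h0, vec_zero]
    have h4 : vec e (app m v) = vec e 0 := by
      have h5 : φ γ⁻¹ *ᵥ (φ γ *ᵥ vec e (app m v)) = vec e (app m v) := by
        rw [Matrix.mulVec_mulVec, ← map_mul, inv_mul_cancel, map_one, Matrix.one_mulVec]
      rw [← h5, h2, Matrix.mulVec_zero, vec_zero]
    exact hm'.2 (vec_inj e hm'.1 (by positivity) h4)

end Cfsg.Agent.H732.Bit
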